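import Mathlib.GroupTheory.Sylow
import Mathlib.Data.ZMod.Basic

/-!
# Sylow 3-subgroups `3 ≀ 3` (helper874, S5745)

* `exists_conj_in` : elements of prime power order are conjugate into a Sylow subgroup given by its order;
* `step` : `A ⊔ ⟨t⟩`, `t ^ 3 = 1`, `t` normalises `A`;
* `Two.exists_inv`, `Cyc.exists_inv` : the elements of order three of `3 × 3` and `3 ≀ 3` commute with an involution.
-/

set_option autoImplicit false
set_option linter.unusedSectionVars false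

namespace Cfsg.Agent.H874.TS

theorem exists_conj_in {G : Type*} [Group G] [Finite G] {r : ℕ} [hr : Fact r.Prime] {L Q : Subgroup G} (hQL : Q ≤ L)
    {b : ℕ} (hQ : Nat.card Q = r ^ b) {N : ℕ} (hL : Nat.card L ∣ N) (hN : ¬ r ^ (b + 1) ∣ N) {y : G} (hyL : y ∈ L) {k : ℕ}
    (hy : y ^ r ^ k = 1) : ∃ g ∈ L, g * y * g⁻¹ ∈ Q := by
  have hcQ : Nat.card (Q.subgroupOf L) = r ^ b := by
    rw [Nat.card_congr (Subgroup.subgroupOfEquivOfLe hQL).toEquiv, hQ]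
  have h1 : r ^ b ∣ Nat.card L := by rw [← hcQ]; exact Subgroup.card_subgroup_dvd_card _
  have hpos : Nat.card L ≠ 0 := Nat.card_pos.ne'
  have h2 : (Nat.card L).factorization r = b := by
    apply le_antisymm
    · by_contra hcon
      push Not at hcon
      exact hN (dvd_trans ((hr.out.pow_dvd_iff_le_factorization hpos).2 hcon) hL)
    · exact (hr.out.pow_dvd_iff_le_factorization hpos).1 h1
  let P : Sylow r L := Sylow.ofCard (Q.subgroupOf L) (by rw [hcQ, h2])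
  have h3 : IsPGroup r (Subgroup.zpowers (⟨y, hyL⟩ : L)) := by
    refine IsPGroup.of_card (n := (orderOf (⟨y, hyL⟩ : L)).factorization r) ?_
    rw [Nat.card_zpowers]
    have h4 : orderOf (⟨y, hyL⟩ : L) ∣ r ^ k := orderOf_dvd_of_pow_eq_one (Subtype.ext (by simpa using hy))
    obtain ⟨j, -, hj⟩ := (Nat.dvd_prime_pow hr.out).1 h4
    rw [hj, hr.out.factorization_pow, Finsupp.single_eq_same]
  obtain ⟨P', hP'⟩ := h3.exists_le_sylow
  obtain ⟨g, hg⟩ := MulAction.exists_smul_eq L P' P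
  refine ⟨g, g.2, ?_⟩
  have h5 : g * ⟨y, hyL⟩ * g⁻¹ ∈ (P : Subgroup L) := by
    rw [← hg, Sylow.coe_subgroup_smul, Subgroup.mem_pointwise_smul_iff_inv_smul_mem, ← map_inv, MulAut.smul_def,
      MulAut.conj_apply]
    have h6 : g⁻¹ * (g * ⟨y, hyL⟩ * g⁻¹) * g⁻¹⁻¹ = ⟨y, hyL⟩ := by group
    rw [h6]
    exact hP' (Subgroup.mem_zpowers _)
  exact h5

/-- `A ⊔ ⟨t⟩` -/
theorem step {G : Type*} [Group G] [Finite G] {A : Subgroup G} {t : G} (hn : ∀ a ∈ A, t * a * t⁻¹ ∈ A) (h3 : t ^ 3 = 1)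
    (ht : t ∉ A) : ∃ B : Subgroup G, Nat.card B = 3 * Nat.card A ∧ (∀ g, g ∈ B ↔ ∃ a ∈ A, ∃ i : ℕ, i < 3 ∧ g = a * t ^ i) := by
  have hn' : ∀ (i : ℕ), ∀ a ∈ A, t ^ i * a * (t ^ i)⁻¹ ∈ A := by
    intro i
    induction i with
    | zero => intro a ha; simpa using ha
    | succ i ih =>
      intro a ha
      have h1 := hn _ (ih a ha)
      have h2 : t ^ (i + 1) * a * (t ^ (i + 1))⁻¹ = t * (t ^ i * a * (t ^ i)⁻¹) * t⁻¹ := by rw [pow_succ']; group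
      rw [h2]; exact h1
  have hmod : ∀ i : ℕ, t ^ i = t ^ (i % 3) := fun i => by
    conv_lhs => rw [← Nat.div_add_mod i 3, pow_add, pow_mul, h3, one_pow, one_mul]
  let B : Subgroup G :=
    { carrier := {g | ∃ a ∈ A, ∃ i : ℕ, i < 3 ∧ g = a * t ^ i}
      one_mem' := ⟨1, A.one_mem, 0, by norm_num, by simp⟩
      mul_mem' := by
        rintro _ _ ⟨a, ha, i, hi, rfl⟩ ⟨b, hb, j, hj, rfl⟩
        refine ⟨a * (t ^ i * b * (t ^ i)⁻¹), A.mul_mem ha (hn' i b hb), (i + j) % 3, Nat.mod_lt _ (by norm_num), ?_⟩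
        rw [← hmod, pow_add]; group
      inv_mem' := by
        rintro _ ⟨a, ha, i, hi, rfl⟩
        have h1 : (t ^ i)⁻¹ = t ^ (2 * i) := by
          rw [inv_eq_iff_mul_eq_one, ← pow_add, show i + 2 * i = 3 * i by ring, pow_mul, h3, one_pow]
        refine ⟨t ^ (2 * i) * a⁻¹ * (t ^ (2 * i))⁻¹, hn' _ _ (A.inv_mem ha), (2 * i) % 3, Nat.mod_lt _ (by norm_num), ?_⟩
        rw [← hmod, mul_inv_rev, h1]; group }
  refine ⟨B, ?_, fun g => Iff.rfl⟩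
  have hinj : ∀ i < 3, ∀ j < 3, i ≤ j → ∀ a ∈ A, ∀ b ∈ A, a * t ^ i = b * t ^ j → i = j := by
    intro i hi j hj hij a ha b hb h
    by_contra hne
    have h1 : t ^ (j - i) ∈ A := by
      have h2 : t ^ j = t ^ (j - i) * t ^ i := by rw [← pow_add, Nat.sub_add_cancel hij]
      have h3 : t ^ (j - i) = b⁻¹ * a := by
        rw [h2, ← mul_assoc] at h
        have := mul_right_cancel h
        rw [this]; group
      rw [h3]; exact A.mul_mem (A.inv_mem hb) ha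
    have h4 : j - i = 1 ∨ j - i = 2 := by omega
    rcases h4 with h4 | h4
    · rw [h4, pow_one] at h1; exact ht h1
    · rw [h4] at h1
      have h5 : t = t ^ 2 * t ^ 2 := by rw [← pow_add, show 2 + 2 = 3 + 1 by norm_num, pow_add, h3, one_mul, pow_one]
      exact ht (by rw [h5]; exact A.mul_mem h1 h1)
  let F : A × Fin 3 → B := fun x => ⟨x.1 * t ^ (x.2 : ℕ), x.1, x.1.2, x.2, x.2.2, rfl⟩
  have hF : Function.Bijective F := by
    constructor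
    · rintro ⟨a, i⟩ ⟨b, j⟩ h
      have h1 : (a : G) * t ^ (i : ℕ) = b * t ^ (j : ℕ) := congrArg Subtype.val h
      have h2 : i = j := by
        apply Fin.ext
        rcases le_total (i : ℕ) j with hij | hij
        · exact hinj i i.2 j j.2 hij a a.2 b b.2 h1
        · exact (hinj j j.2 i i.2 hij b b.2 a a.2 h1.symm).symm
      subst h2
      have h3 := mul_right_cancel h1
      rw [Subtype.ext h3]
    · rintro ⟨_, a, ha, i, hi, rfl⟩
      exact ⟨(⟨a, ha⟩, ⟨i, hi⟩), rfl⟩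
  rw [← Nat.card_congr (Equiv.ofBijective F hF), Nat.card_prod, Nat.card_fin, mul_comm]

/-- two commuting elements of order three with commuting involutions -/
structure Two {G : Type*} [Group G] (L : Subgroup G) (s1 s2 x1 x2 : G) : Prop where
  s1L : s1 ∈ L
  s2L : s2 ∈ L
  x1L : x1 ∈ L
  x2L : x2 ∈ L
  ss : s1 * s2 = s2 * s1
  s1p : s1 ^ 3 = 1
  s2p : s2 ^ 3 = 1
  x1p : x1 ^ 2 = 1
  x2p : x2 ^ 2 = 1
  x12 : x1 * s2 = s2 * x1
  x21 : x2 * s1 = s1 * x2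
  x11 : x1 * s1 ≠ s1 * x1
  x22 : x2 * s2 ≠ s2 * x2

theorem Two.sub {G : Type*} [Group G] [Finite G] {L : Subgroup G} {s1 s2 x1 x2 : G} (h : Two L s1 s2 x1 x2) :
    ∃ B : Subgroup G, Nat.card B = 9 ∧ B ≤ L ∧ ∀ g, g ∈ B ↔ ∃ i < 3, ∃ j < 3, g = s1 ^ i * s2 ^ j := by
  obtain ⟨A, hA, hA'⟩ := step (A := (⊥ : Subgroup G)) (t := s1) (fun a ha => by
    rw [Subgroup.mem_bot] at ha ⊢; rw [ha]; group) h.s1p (by
    rw [Subgroup.mem_bot]; rintro rfl; exact h.x11 (by simp))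
  have hA2 : ∀ g ∈ A, ∃ i < 3, g = s1 ^ i := by
    intro g hg
    obtain ⟨a, ha, i, hi, rfl⟩ := (hA' g).1 hg
    rw [Subgroup.mem_bot] at ha
    exact ⟨i, hi, by rw [ha, one_mul]⟩
  have hA3 : ∀ i < 3, s1 ^ i ∈ A := fun i hi => (hA' _).2 ⟨1, Subgroup.one_mem _, i, hi, by rw [one_mul]⟩
  obtain ⟨B, hB, hB'⟩ := step (A := A) (t := s2) (fun a ha => by
    obtain ⟨i, hi, rfl⟩ := hA2 a ha
    have h1 : Commute s2 (s1 ^ i) := (show Commute s2 s1 from h.ss.symm).pow_right i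
    rw [h1.eq, mul_inv_cancel_right]; exact hA3 i hi) h.s2p (fun hs => by
    obtain ⟨i, hi, h1⟩ := hA2 s2 hs
    exact h.x22 (by rw [h1]; exact ((show Commute x2 s1 from h.x21).pow_right i).eq))
  refine ⟨B, ?_, ?_, fun g => ⟨fun hg => ?_, fun hg => ?_⟩⟩
  · rw [hB, hA, Subgroup.card_bot]
  · intro g hg
    obtain ⟨a, ha, j, hj, rfl⟩ := (hB' g).1 hg
    obtain ⟨i, hi, rfl⟩ := hA2 a ha
    exact L.mul_mem (L.pow_mem h.s1L _) (L.pow_mem h.s2L _)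
  · obtain ⟨a, ha, j, hj, rfl⟩ := (hB' g).1 hg
    obtain ⟨i, hi, rfl⟩ := hA2 a ha
    exact ⟨i, hi, j, hj, rfl⟩
  · obtain ⟨i, hi, j, hj, rfl⟩ := hg
    exact (hB' _).2 ⟨_, hA3 i hi, j, hj, rfl⟩

/-- `B₂`: the two further involutions -/
theorem Two.exists_inv {G : Type*} [Group G] [Finite G] {L : Subgroup G} {s1 s2 x1 x2 c d : G} (h : Two L s1 s2 x1 x2)
    (hcL : c ∈ L) (hdL : d ∈ L) (hc2 : c ^ 2 = 1) (hd2 : d ^ 2 = 1) (hc1 : c * s1 = s2 * c) (hc3 : c * s2 = s1 * c)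
    (hd1 : d * s1 = s2⁻¹ * d) (hd3 : d * s2 = s1⁻¹ * d) {i j : ℕ} (hi : i < 3) (hj : j < 3) :
    ∃ u ∈ L, u ^ 2 = 1 ∧ u ≠ 1 ∧ (s1 ^ i * s2 ^ j) * u = u * (s1 ^ i * s2 ^ j) := by
  have hcx : Commute x1 s2 := h.x12
  have hcx2 : Commute x2 s1 := h.x21
  have hs : Commute s1 s2 := h.ss
  have hx1 : x1 ≠ 1 := by rintro rfl; exact h.x11 (by simp)
  have hx2 : x2 ≠ 1 := by rintro rfl; exact h.x22 (by simp)
  have hcne : c ≠ 1 := by
    rintro rfl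
    rw [one_mul, mul_one] at hc1
    exact h.x11 (by rw [hc1]; exact h.x12)
  have hdne : d ≠ 1 := by
    rintro rfl
    rw [one_mul, mul_one] at hd1
    exact h.x11 (by rw [hd1]; exact hcx.inv_right.eq)
  rcases Nat.eq_zero_or_pos i with rfl | hi0
  · exact ⟨x1, h.x1L, h.x1p, hx1, by rw [pow_zero, one_mul]; exact (hcx.pow_right j).eq.symm⟩
  rcases Nat.eq_zero_or_pos j with rfl | hj0
  · exact ⟨x2, h.x2L, h.x2p, hx2, by rw [pow_zero, mul_one]; exact (hcx2.pow_right i).eq.symm⟩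
  have hcc : ∀ k : ℕ, c * s1 ^ k = s2 ^ k * c := fun k => (show SemiconjBy c s1 s2 from hc1).pow_right k
  have hcc' : ∀ k : ℕ, c * s2 ^ k = s1 ^ k * c := fun k => (show SemiconjBy c s2 s1 from hc3).pow_right k
  have hdd : ∀ k : ℕ, d * s1 ^ k = s2⁻¹ ^ k * d := fun k => (show SemiconjBy d s1 s2⁻¹ from hd1).pow_right k
  have hdd' : ∀ k : ℕ, d * s2 ^ k = s1⁻¹ ^ k * d := fun k => (show SemiconjBy d s2 s1⁻¹ from hd3).pow_right k
  have hinv1 : s1⁻¹ = s1 ^ 2 := by rw [inv_eq_iff_mul_eq_one, ← pow_succ', h.s1p]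
  have hinv2 : s2⁻¹ = s2 ^ 2 := by rw [inv_eq_iff_mul_eq_one, ← pow_succ', h.s2p]
  have p1 : ∀ k : ℕ, s1 ^ (k + 3) = s1 ^ k := fun k => by rw [pow_add, h.s1p, mul_one]
  have p2 : ∀ k : ℕ, s2 ^ (k + 3) = s2 ^ k := fun k => by rw [pow_add, h.s2p, mul_one]
  have key : ∀ a b : ℕ, a = b → ∃ u ∈ L, u ^ 2 = 1 ∧ u ≠ 1 ∧ (s1 ^ a * s2 ^ b) * u = u * (s1 ^ a * s2 ^ b) := by
    rintro a b rfl
    refine ⟨c, hcL, hc2, hcne, ?_⟩
    have e : c * (s1 ^ a * s2 ^ a) = s2 ^ a * s1 ^ a * c := by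
      rw [← mul_assoc, hcc, mul_assoc, hcc', ← mul_assoc]
    rw [e, (hs.pow_pow a a).eq]
  have key2 : ∀ a b : ℕ, (s2 ^ 2) ^ a = s2 ^ b → (s1 ^ 2) ^ b = s1 ^ a →
      ∃ u ∈ L, u ^ 2 = 1 ∧ u ≠ 1 ∧ (s1 ^ a * s2 ^ b) * u = u * (s1 ^ a * s2 ^ b) := by
    intro a b h1 h2
    refine ⟨d, hdL, hd2, hdne, ?_⟩
    have e : d * (s1 ^ a * s2 ^ b) = s2⁻¹ ^ a * s1⁻¹ ^ b * d := by
      rw [← mul_assoc, hdd, mul_assoc, hdd', ← mul_assoc]
    rw [e, hinv2, hinv1, h1, h2, (hs.pow_pow a b).eq]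
  interval_cases i <;> interval_cases j
  · exact key 1 1 rfl
  · exact key2 1 2 (by rw [pow_one]) (by rw [← pow_mul]; exact p1 1)
  · exact key2 2 1 (by rw [← pow_mul]; exact p2 1) (by rw [pow_one])
  · exact key 2 2 rfl

/-- `3 ≀ 3` -/
structure Cyc {G : Type*} [Group G] (L : Subgroup G) (s0 s1 s2 x0 x1 x2 p t c0 c1 c2 : G) : Prop where
  s0L : s0 ∈ L
  s1L : s1 ∈ L
  s2L : s2 ∈ L
  x0L : x0 ∈ L
  x1L : x1 ∈ L
  x2L : x2 ∈ L
  pL : p ∈ L
  tL : t ∈ L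
  c0L : c0 ∈ L
  c1L : c1 ∈ L
  c2L : c2 ∈ L
  s01 : s0 * s1 = s1 * s0
  s02 : s0 * s2 = s2 * s0
  s12 : s1 * s2 = s2 * s1
  s0p : s0 ^ 3 = 1
  s1p : s1 ^ 3 = 1
  s2p : s2 ^ 3 = 1
  x0p : x0 ^ 2 = 1
  x1p : x1 ^ 2 = 1
  x2p : x2 ^ 2 = 1
  tp : t ^ 2 = 1
  c0p : c0 ^ 2 = 1
  c1p : c1 ^ 2 = 1
  c2p : c2 ^ 2 = 1
  pp : p ^ 3 = 1
  x01 : x0 * s1 = s1 * x0
  x02 : x0 * s2 = s2 * x0
  x10 : x1 * s0 = s0 * x1
  x12 : x1 * s2 = s2 * x1
  x20 : x2 * s0 = s0 * x2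
  x21 : x2 * s1 = s1 * x2
  x00 : x0 * s0 ≠ s0 * x0
  x11 : x1 * s1 ≠ s1 * x1
  x22 : x2 * s2 ≠ s2 * x2
  p0 : p * s0 = s1 * p
  p1 : p * s1 = s2 * p
  p2 : p * s2 = s0 * p
  pt : p * t = t * p
  t1 : t ≠ 1
  c00 : c0 * s0 = s0 * c0
  c01 : c0 * s1 = s2 * c0
  c02 : c0 * s2 = s1 * c0
  c10 : c1 * s0 = s2 * c1
  c11 : c1 * s1 = s1 * c1
  c12 : c1 * s2 = s0 * c1
  c20 : c2 * s0 = s1 * c2
  c21 : c2 * s1 = s0 * c2
  c22 : c2 * s2 = s2 * c2

section Cyc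

variable {G : Type*} [Group G] [Finite G] {L : Subgroup G} {s0 s1 s2 x0 x1 x2 p t c0 c1 c2 : G}
  (h : Cyc L s0 s1 s2 x0 x1 x2 p t c0 c1 c2)

include h

theorem Cyc.sub : ∃ B : Subgroup G, Nat.card B = 81 ∧ B ≤ L ∧
    ∀ g, g ∈ B → ∃ i < 3, ∃ j < 3, ∃ k < 3, ∃ l < 3, g = s0 ^ i * s1 ^ j * s2 ^ k * p ^ l := by
  have hT : Two L s0 s1 x0 x1 := ⟨h.s0L, h.s1L, h.x0L, h.x1L, h.s01, h.s0p, h.s1p, h.x0p, h.x1p, h.x01, h.x10, h.x00, h.x11⟩
  obtain ⟨A, hA, hAL, hA'⟩ := hT.sub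
  have hc20 : Commute s2 s0 := h.s02.symm
  have hc21 : Commute s2 s1 := h.s12.symm
  have hs2A : ∀ a ∈ A, Commute s2 a := by
    intro a ha
    obtain ⟨i, -, j, -, rfl⟩ := (hA' a).1 ha
    exact (hc20.pow_right i).mul_right (hc21.pow_right j)
  obtain ⟨B, hB, hB'⟩ := step (A := A) (t := s2) (fun a ha => by
    rw [(hs2A a ha).eq, mul_inv_cancel_right]; exact ha) h.s2p (fun hs => by
    obtain ⟨i, -, j, -, h1⟩ := (hA' s2).1 hs
    refine h.x22 ?_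
    rw [h1]
    exact (((show Commute x2 s0 from h.x20).pow_right i).mul_right ((show Commute x2 s1 from h.x21).pow_right j)).eq)
  have hB2 : ∀ g, g ∈ B ↔ ∃ i < 3, ∃ j < 3, ∃ k < 3, g = s0 ^ i * s1 ^ j * s2 ^ k := by
    intro g
    rw [hB']
    constructor
    · rintro ⟨a, ha, k, hk, rfl⟩
      obtain ⟨i, hi, j, hj, rfl⟩ := (hA' a).1 ha
      exact ⟨i, hi, j, hj, k, hk, rfl⟩
    · rintro ⟨i, hi, j, hj, k, hk, rfl⟩
      exact ⟨_, (hA' _).2 ⟨i, hi, j, hj, rfl⟩, k, hk, rfl⟩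
  have hB3 : ∀ i j k : ℕ, s0 ^ i * s1 ^ j * s2 ^ k ∈ B := by
    intro i j k
    refine (hB2 _).2 ⟨i % 3, Nat.mod_lt _ (by norm_num), j % 3, Nat.mod_lt _ (by norm_num), k % 3,
      Nat.mod_lt _ (by norm_num), ?_⟩
    rw [← pow_eq_pow_mod i h.s0p, ← pow_eq_pow_mod j h.s1p, ← pow_eq_pow_mod k h.s2p]
  have hconj : ∀ i j k : ℕ, p * (s0 ^ i * s1 ^ j * s2 ^ k) = (s0 ^ k * s1 ^ i * s2 ^ j) * p := by
    intro i j k
    have e0 : p * s0 ^ i = s1 ^ i * p := (show SemiconjBy p s0 s1 from h.p0).pow_right i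
    have e1 : p * s1 ^ j = s2 ^ j * p := (show SemiconjBy p s1 s2 from h.p1).pow_right j
    have e2 : p * s2 ^ k = s0 ^ k * p := (show SemiconjBy p s2 s0 from h.p2).pow_right k
    have k1 : Commute (s1 ^ i * s2 ^ j) (s0 ^ k) :=
      (((show Commute s1 s0 from h.s01.symm).pow_pow i k)).mul_left ((show Commute s2 s0 from h.s02.symm).pow_pow j k)
    calc p * (s0 ^ i * s1 ^ j * s2 ^ k) = (p * s0 ^ i) * s1 ^ j * s2 ^ k := by group
      _ = s1 ^ i * (p * s1 ^ j) * s2 ^ k := by rw [e0]; group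
      _ = s1 ^ i * s2 ^ j * (p * s2 ^ k) := by rw [e1]; group
      _ = (s1 ^ i * s2 ^ j) * s0 ^ k * p := by rw [e2]; group
      _ = s0 ^ k * (s1 ^ i * s2 ^ j) * p := by rw [k1.eq]
      _ = _ := by group
  obtain ⟨C, hC, hC'⟩ := step (A := B) (t := p) (fun a ha => by
    obtain ⟨i, -, j, -, k, -, rfl⟩ := (hB2 a).1 ha
    rw [hconj, mul_inv_cancel_right]
    exact hB3 _ _ _) h.pp (fun hp => by
    obtain ⟨i, -, j, -, k, -, h1⟩ := (hB2 p).1 hp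
    have h2 : Commute p s0 := by
      rw [h1]
      exact ((((Commute.refl s0).pow_left i).mul_left ((show Commute s1 s0 from h.s01.symm).pow_left j))).mul_left
        ((show Commute s2 s0 from h.s02.symm).pow_left k)
    have h3 : s1 = s0 := by
      have := h.p0
      rw [h2.eq] at this
      exact (mul_right_cancel this).symm
    exact h.x11 (by rw [h3]; exact h.x10))
  refine ⟨C, by rw [hC, hB, hA], ?_, fun g hg => ?_⟩
  · intro g hg
    obtain ⟨a, ha, l, -, rfl⟩ := (hC' g).1 hg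
    obtain ⟨i, -, j, -, k, -, rfl⟩ := (hB2 a).1 ha
    exact L.mul_mem (L.mul_mem (L.mul_mem (L.pow_mem h.s0L _) (L.pow_mem h.s1L _)) (L.pow_mem h.s2L _)) (L.pow_mem h.pL _)
  · obtain ⟨a, ha, l, hl, rfl⟩ := (hC' g).1 hg
    obtain ⟨i, hi, j, hj, k, hk, rfl⟩ := (hB2 a).1 ha
    exact ⟨i, hi, j, hj, k, hk, l, hl, rfl⟩

theorem Cyc.conj (i j k : ℕ) : p * (s0 ^ i * s1 ^ j * s2 ^ k) = (s0 ^ k * s1 ^ i * s2 ^ j) * p := by
  have e0 : p * s0 ^ i = s1 ^ i * p := (show SemiconjBy p s0 s1 from h.p0).pow_right i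
  have e1 : p * s1 ^ j = s2 ^ j * p := (show SemiconjBy p s1 s2 from h.p1).pow_right j
  have e2 : p * s2 ^ k = s0 ^ k * p := (show SemiconjBy p s2 s0 from h.p2).pow_right k
  have k1 : Commute (s1 ^ i * s2 ^ j) (s0 ^ k) :=
    (((show Commute s1 s0 from h.s01.symm).pow_pow i k)).mul_left ((show Commute s2 s0 from h.s02.symm).pow_pow j k)
  calc p * (s0 ^ i * s1 ^ j * s2 ^ k) = (p * s0 ^ i) * s1 ^ j * s2 ^ k := by group
    _ = s1 ^ i * (p * s1 ^ j) * s2 ^ k := by rw [e0]; group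
    _ = s1 ^ i * s2 ^ j * (p * s2 ^ k) := by rw [e1]; group
    _ = (s1 ^ i * s2 ^ j) * s0 ^ k * p := by rw [e2]; group
    _ = s0 ^ k * (s1 ^ i * s2 ^ j) * p := by rw [k1.eq]
    _ = _ := by group

theorem Cyc.mul (i j k i' j' k' : ℕ) : (s0 ^ i * s1 ^ j * s2 ^ k) * (s0 ^ i' * s1 ^ j' * s2 ^ k') =
    s0 ^ (i + i') * s1 ^ (j + j') * s2 ^ (k + k') := by
  have a1 : Commute (s1 ^ j * s2 ^ k) (s0 ^ i') :=
    (((show Commute s1 s0 from h.s01.symm).pow_pow j i')).mul_left ((show Commute s2 s0 from h.s02.symm).pow_pow k i')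
  have a2 : Commute (s2 ^ k) (s1 ^ j') := (show Commute s2 s1 from h.s12.symm).pow_pow k j'
  calc (s0 ^ i * s1 ^ j * s2 ^ k) * (s0 ^ i' * s1 ^ j' * s2 ^ k') =
      s0 ^ i * ((s1 ^ j * s2 ^ k) * s0 ^ i') * s1 ^ j' * s2 ^ k' := by group
    _ = s0 ^ i * (s0 ^ i' * (s1 ^ j * s2 ^ k)) * s1 ^ j' * s2 ^ k' := by rw [a1.eq]
    _ = s0 ^ (i + i') * s1 ^ j * (s2 ^ k * s1 ^ j') * s2 ^ k' := by rw [pow_add]; group
    _ = s0 ^ (i + i') * s1 ^ j * (s1 ^ j' * s2 ^ k) * s2 ^ k' := by rw [a2.eq]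
    _ = s0 ^ (i + i') * s1 ^ (j + j') * s2 ^ (k + k') := by rw [pow_add s1, pow_add s2]; group

theorem Cyc.mod (i j k : ℕ) : s0 ^ i * s1 ^ j * s2 ^ k = s0 ^ (i % 3) * s1 ^ (j % 3) * s2 ^ (k % 3) := by
  rw [← pow_eq_pow_mod i h.s0p, ← pow_eq_pow_mod j h.s1p, ← pow_eq_pow_mod k h.s2p]

/-- the elements outside the base group -/
theorem Cyc.out {i j k : ℕ} (hi : i < 3) (hj : j < 3) (hk : k < 3)
    (hg : (s0 ^ i * s1 ^ j * s2 ^ k * p) ^ 3 = 1) :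
    ∃ u ∈ L, u ^ 2 = 1 ∧ u ≠ 1 ∧ (s0 ^ i * s1 ^ j * s2 ^ k * p) * u = u * (s0 ^ i * s1 ^ j * s2 ^ k * p) := by
  have hn : s0 ^ (i + j + k) * s1 ^ (i + j + k) * s2 ^ (i + j + k) = 1 := by
    rw [← hg]
    have e : ∀ e e1 e2 : G, p * e = e1 * p → p * e1 = e2 * p → (e * p) ^ 3 = e * e1 * e2 * p ^ 3 := by
      intro e e1 e2 h1 h2
      calc (e * p) ^ 3 = e * (p * e) * (p * e) * p := by simp only [pow_succ, pow_zero, one_mul, mul_assoc]
        _ = e * (e1 * p) * (e1 * p) * p := by rw [h1]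
        _ = e * e1 * (p * e1) * (p * p) := by simp only [mul_assoc]
        _ = e * e1 * (e2 * p) * (p * p) := by rw [h2]
        _ = e * e1 * e2 * p ^ 3 := by simp only [pow_succ, pow_zero, one_mul, mul_assoc]
    rw [e _ _ _ (h.conj i j k) (h.conj k i j), h.pp, mul_one, h.mul, h.mul]
    have e4 : i + k + j = i + j + k := by ring
    have e5 : j + i + k = i + j + k := by ring
    have e6 : k + j + i = i + j + k := by ring
    rw [e4, e5, e6]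
  have hd : (i + j + k) % 3 = 0 := by
    by_contra hne
    set n := i + j + k with hnn
    have h1 : s0 ^ n = (s1 ^ n * s2 ^ n)⁻¹ := by
      rw [eq_inv_iff_mul_eq_one, ← mul_assoc]; exact hn
    have h2 : Commute x0 (s0 ^ n) := by
      rw [h1]
      exact (((show Commute x0 s1 from h.x01).pow_right n).mul_right ((show Commute x0 s2 from h.x02).pow_right n)).inv_right
    have h3 : s0 = s0 ^ n ∨ s0 = s0 ^ n * s0 ^ n := by
      rw [← pow_add, pow_eq_pow_mod n h.s0p, pow_eq_pow_mod (n + n) h.s0p]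
      have h4 : n % 3 = 1 ∨ n % 3 = 2 := by omega
      rcases h4 with h4 | h4
      · left; rw [h4, pow_one]
      · right; rw [show (n + n) % 3 = 1 by omega, pow_one]
    apply h.x00
    rcases h3 with h3 | h3
    · rw [h3]; exact h2.eq
    · rw [h3]; exact (h2.mul_right h2).eq
  -- `u = s1 ^ j * s2 ^ (j + k)`
  have hu : (s0 ^ 0 * s1 ^ j * s2 ^ (j + k)) * p = (s0 ^ i * s1 ^ j * s2 ^ k * p) * (s0 ^ 0 * s1 ^ j * s2 ^ (j + k)) := by
    rw [mul_assoc (s0 ^ i * s1 ^ j * s2 ^ k), h.conj, ← mul_assoc, h.mul, h.mod 0, h.mod (i + (j + k))]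
    congr 2
    · congr 1
      congr 1
      omega
    · congr 1
      omega
  set u := s0 ^ 0 * s1 ^ j * s2 ^ (j + k) with hudef
  have huL : u ∈ L := L.mul_mem (L.mul_mem (L.pow_mem h.s0L _) (L.pow_mem h.s1L _)) (L.pow_mem h.s2L _)
  refine ⟨u * t * u⁻¹, L.mul_mem (L.mul_mem huL h.tL) (L.inv_mem huL), ?_, ?_, ?_⟩
  · have : (u * t * u⁻¹) ^ 2 = u * t ^ 2 * u⁻¹ := by simp only [pow_two]; group
    rw [this, h.tp, mul_one, mul_inv_cancel]
  · intro h1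
    exact h.t1 (conj_eq_one_iff.1 h1)
  · have hy : s0 ^ i * s1 ^ j * s2 ^ k * p = u * p * u⁻¹ := by rw [hu, mul_inv_cancel_right]
    rw [hy]
    calc u * p * u⁻¹ * (u * t * u⁻¹) = u * (p * t) * u⁻¹ := by group
      _ = u * (t * p) * u⁻¹ := by rw [h.pt]
      _ = _ := by group

theorem Cyc.exists_inv {i j k l : ℕ} (hi : i < 3) (hj : j < 3) (hk : k < 3) (hl : l < 3)
    (hg : (s0 ^ i * s1 ^ j * s2 ^ k * p ^ l) ^ 3 = 1) :
    ∃ u ∈ L, u ^ 2 = 1 ∧ u ≠ 1 ∧ (s0 ^ i * s1 ^ j * s2 ^ k * p ^ l) * u = u * (s0 ^ i * s1 ^ j * s2 ^ k * p ^ l) := by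
  have hx0 : x0 ≠ 1 := by rintro rfl; exact h.x00 (by simp)
  have hx1 : x1 ≠ 1 := by rintro rfl; exact h.x11 (by simp)
  have hx2 : x2 ≠ 1 := by rintro rfl; exact h.x22 (by simp)
  interval_cases l
  · rw [pow_zero, mul_one]
    by_cases hi0 : i = 0
    · subst hi0
      refine ⟨x0, h.x0L, h.x0p, hx0, ?_⟩
      rw [pow_zero, one_mul]
      exact (((show Commute x0 s1 from h.x01).pow_right j).mul_right ((show Commute x0 s2 from h.x02).pow_right k)).eq.symm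
    by_cases hj0 : j = 0
    · subst hj0
      refine ⟨x1, h.x1L, h.x1p, hx1, ?_⟩
      rw [pow_zero, mul_one]
      exact (((show Commute x1 s0 from h.x10).pow_right i).mul_right ((show Commute x1 s2 from h.x12).pow_right k)).eq.symm
    by_cases hk0 : k = 0
    · subst hk0
      refine ⟨x2, h.x2L, h.x2p, hx2, ?_⟩
      rw [pow_zero, mul_one]
      exact (((show Commute x2 s0 from h.x20).pow_right i).mul_right ((show Commute x2 s1 from h.x21).pow_right j)).eq.symm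
    have h3 : i = j ∨ i = k ∨ j = k := by omega
    have c0s : ∀ a b d : ℕ, c0 * (s0 ^ a * s1 ^ b * s2 ^ d) = (s0 ^ a * s2 ^ b * s1 ^ d) * c0 := fun a b d =>
      ((((show SemiconjBy c0 s0 s0 from h.c00).pow_right a).mul_right
        ((show SemiconjBy c0 s1 s2 from h.c01).pow_right b)).mul_right ((show SemiconjBy c0 s2 s1 from h.c02).pow_right d)).eq
    have c1s : ∀ a b d : ℕ, c1 * (s0 ^ a * s1 ^ b * s2 ^ d) = (s2 ^ a * s1 ^ b * s0 ^ d) * c1 := fun a b d =>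
      ((((show SemiconjBy c1 s0 s2 from h.c10).pow_right a).mul_right
        ((show SemiconjBy c1 s1 s1 from h.c11).pow_right b)).mul_right ((show SemiconjBy c1 s2 s0 from h.c12).pow_right d)).eq
    have c2s : ∀ a b d : ℕ, c2 * (s0 ^ a * s1 ^ b * s2 ^ d) = (s1 ^ a * s0 ^ b * s2 ^ d) * c2 := fun a b d =>
      ((((show SemiconjBy c2 s0 s1 from h.c20).pow_right a).mul_right
        ((show SemiconjBy c2 s1 s0 from h.c21).pow_right b)).mul_right ((show SemiconjBy c2 s2 s2 from h.c22).pow_right d)).eq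
    have k01 : ∀ a b : ℕ, s0 ^ a * s1 ^ b = s1 ^ b * s0 ^ a := fun a b => ((show Commute s0 s1 from h.s01).pow_pow a b).eq
    have k02 : ∀ a b : ℕ, s0 ^ a * s2 ^ b = s2 ^ b * s0 ^ a := fun a b => ((show Commute s0 s2 from h.s02).pow_pow a b).eq
    have k12 : ∀ a b : ℕ, s1 ^ a * s2 ^ b = s2 ^ b * s1 ^ a := fun a b => ((show Commute s1 s2 from h.s12).pow_pow a b).eq
    rcases h3 with rfl | rfl | rfl
    · refine ⟨c2, h.c2L, h.c2p, ?_, ?_⟩
      · rintro rfl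
        have := h.c20
        rw [one_mul, mul_one] at this
        exact h.x11 (by rw [← this]; exact h.x10)
      · rw [c2s, ← k01]
    · refine ⟨c1, h.c1L, h.c1p, ?_, ?_⟩
      · rintro rfl
        have := h.c10
        rw [one_mul, mul_one] at this
        exact h.x22 (by rw [← this]; exact h.x20)
      · rw [c1s]
        congr 1
        rw [k01 i j, mul_assoc, k02 i i, ← mul_assoc, k12 j i]
    · refine ⟨c0, h.c0L, h.c0p, ?_, ?_⟩
      · rintro rfl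
        have := h.c01
        rw [one_mul, mul_one] at this
        exact h.x22 (by rw [← this]; exact h.x21)
      · rw [c0s]
        congr 1
        rw [mul_assoc, k12 j j, ← mul_assoc]
  · rw [pow_one] at hg ⊢
    exact h.out hi hj hk hg
  · -- the inverse
    have hp2 : (p ^ 2)⁻¹ = p := by rw [inv_eq_iff_mul_eq_one, ← pow_succ, h.pp]
    have hinv : (s0 ^ i * s1 ^ j * s2 ^ k)⁻¹ = s0 ^ (2 * i) * s1 ^ (2 * j) * s2 ^ (2 * k) := by
      rw [inv_eq_iff_mul_eq_one, h.mul, h.mod]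
      rw [show (i + 2 * i) % 3 = 0 by omega, show (j + 2 * j) % 3 = 0 by omega, show (k + 2 * k) % 3 = 0 by omega]
      simp
    have e1 : (s0 ^ i * s1 ^ j * s2 ^ k * p ^ 2)⁻¹ =
        s0 ^ (2 * k % 3) * s1 ^ (2 * i % 3) * s2 ^ (2 * j % 3) * p := by
      rw [mul_inv_rev, hp2, hinv, h.conj, h.mod]
    have hg' : (s0 ^ (2 * k % 3) * s1 ^ (2 * i % 3) * s2 ^ (2 * j % 3) * p) ^ 3 = 1 := by
      rw [← e1, inv_pow, hg, inv_one]
    obtain ⟨u, huL, hu2, hu1, hu⟩ := h.out (Nat.mod_lt _ (by norm_num)) (Nat.mod_lt _ (by norm_num))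
      (Nat.mod_lt _ (by norm_num)) hg'
    refine ⟨u, huL, hu2, hu1, ?_⟩
    rw [← e1] at hu
    have h4 : Commute (s0 ^ i * s1 ^ j * s2 ^ k * p ^ 2)⁻¹ u := hu
    exact (Commute.inv_left_iff.1 h4).eq

end Cyc

end Cfsg.Agent.H874.TS
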